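import Mathlib

set_option autoImplicit false
set_option linter.style.haveILetI false

namespace Cfsg.Agent.Lead.Artin2

/-- a finite field with an automorphism of prime order `r` whose only fixed points are `0`, `1`
has `2 ^ r` elements (Artin) -/
theorem artin_two {F : Type*} [Field F] [Finite F] (σ : F ≃+* F) (r : ℕ) [hr : Fact r.Prime]
    (hσr : σ ^ r = 1) (hσ1 : σ ≠ 1)
    (hfix : ∀ x : F, σ x = x → x = 0 ∨ x = 1) : Nat.card F = 2 ^ r := by
  classical
  haveI : Fintype F := Fintype.ofFinite F
  haveI : Finite (F ≃+* F) :=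
    Finite.of_injective (fun e : F ≃+* F => (e : F → F)) DFunLike.coe_injective
  have hord : orderOf σ = r := orderOf_eq_prime hσr hσ1
  haveI : Fintype (Subgroup.zpowers σ) := Fintype.ofFinite _
  have hZ : Fintype.card (Subgroup.zpowers σ) = r := by
    rw [← Nat.card_eq_fintype_card, Nat.card_zpowers, hord]
  have hfr : Module.finrank (FixedPoints.subfield (Subgroup.zpowers σ) F) F = r := by
    rw [FixedPoints.finrank_eq_card (Subgroup.zpowers σ) F, hZ]
  have hsub : ∀ x : FixedPoints.subfield (Subgroup.zpowers σ) F, x = 0 ∨ x = 1 := by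
    intro x
    have hx : σ (x : F) = x := x.2 ⟨σ, Subgroup.mem_zpowers σ⟩
    rcases hfix _ hx with h | h
    · left; exact Subtype.ext h
    · right; exact Subtype.ext h
  have hc2 : Nat.card (FixedPoints.subfield (Subgroup.zpowers σ) F) = 2 := by
    rw [Nat.card_eq_two_iff]
    refine ⟨0, 1, zero_ne_one, ?_⟩
    ext x
    simp only [Set.mem_insert_iff, Set.mem_singleton_iff, Set.mem_univ, iff_true]
    exact hsub x
  haveI : Fintype (FixedPoints.subfield (Subgroup.zpowers σ) F) := Fintype.ofFinite _
  have key := Module.card_eq_pow_finrank (K := FixedPoints.subfield (Subgroup.zpowers σ) F) (V := F)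
  rw [hfr, ← Nat.card_eq_fintype_card, ← Nat.card_eq_fintype_card, hc2] at key
  exact key

/-- a commuting family `S` of injective endomorphisms of a finite abelian group `V`, regular on
the nonzero vectors from a base point `m`, normalized by an invertible endomorphism `h` of prime
order `r` fixing only `0` and `m`: then `|V| = 2 ^ r` -/
theorem field_regular {V : Type*} [AddCommGroup V] [Finite V]
    (S : Set (AddMonoid.End V))
    (hScomm : ∀ f ∈ S, ∀ g ∈ S, f * g = g * f)
    (hSinj : ∀ f ∈ S, ∀ v : V, f v = 0 → v = 0)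
    (m : V) (hreg : ∀ v : V, v ≠ 0 → ∃ f ∈ S, f m = v)
    (h h' : AddMonoid.End V) (hh' : h * h' = 1) (h'h : h' * h = 1)
    (hnorm : ∀ f ∈ S, h' * f * h ∈ S) (hnorm' : ∀ f ∈ S, h * f * h' ∈ S)
    (hfix : ∀ v : V, h v = v → v = 0 ∨ v = m) (hm : h m = m)
    (r : ℕ) [Fact r.Prime] (hpow : h ^ r = 1)
    (hV : ∃ v : V, v ≠ 0 ∧ v ≠ m) : Nat.card V = 2 ^ r := by
  classical
  obtain ⟨C, hCdef⟩ : ∃ C : Subring (AddMonoid.End V), C = Subring.centralizer S := ⟨_, rfl⟩
  have hCmem : ∀ φ : AddMonoid.End V, φ ∈ C ↔ ∀ f ∈ S, f * φ = φ * f := fun φ => by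
    rw [hCdef]; exact Subring.mem_centralizer_iff
  have hSC : ∀ f ∈ S, f ∈ C := fun f hf => (hCmem f).2 (fun g hg => hScomm g hg f hf)
  have hev : ∀ φ ∈ C, ∀ ψ ∈ C, φ m = ψ m → φ = ψ := by
    intro φ hφ ψ hψ hm'
    refine DFunLike.ext _ _ (fun v => ?_)
    by_cases hv : v = 0
    · rw [hv, map_zero, map_zero]
    · obtain ⟨f, hf, rfl⟩ := hreg v hv
      have e1 : φ (f m) = f (φ m) := by
        have := congrArg (fun g : AddMonoid.End V => g m) ((hCmem φ).1 hφ f hf)
        exact this.symm
      have e2 : ψ (f m) = f (ψ m) := by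
        have := congrArg (fun g : AddMonoid.End V => g m) ((hCmem ψ).1 hψ f hf)
        exact this.symm
      rw [e1, e2, hm']
  have hC0S : ∀ φ ∈ C, φ = 0 ∨ φ ∈ S := by
    intro φ hφ
    by_cases hv : φ m = 0
    · left
      exact hev φ hφ 0 C.zero_mem hv
    · right
      obtain ⟨f, hf, hfm⟩ := hreg _ hv
      have : φ = f := hev φ hφ f (hSC f hf) hfm.symm
      rw [this]; exact hf
  haveI : Nontrivial C := ⟨⟨0, 1, by
    intro h01
    obtain ⟨v, hv, -⟩ := hV
    have : ((0 : C) : AddMonoid.End V) v = ((1 : C) : AddMonoid.End V) v := by rw [h01]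
    exact hv this.symm⟩⟩
  haveI : NoZeroDivisors C := ⟨by
    intro φ ψ hφψ
    by_contra hcon
    push_neg at hcon
    obtain ⟨h1, h2⟩ := hcon
    rcases hC0S φ φ.2 with h0 | hS
    · exact h1 (Subtype.ext h0)
    · apply h2
      apply Subtype.ext
      refine DFunLike.ext _ _ (fun v => ?_)
      have e : (φ : AddMonoid.End V) ((ψ : AddMonoid.End V) v) = 0 := by
        have := congrArg (fun g : C => (g : AddMonoid.End V) v) hφψ
        exact this
      exact hSinj _ hS _ e⟩
  haveI : IsDomain C := NoZeroDivisors.to_isDomain C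
  haveI : Finite (AddMonoid.End V) :=
    Finite.of_injective (fun f : AddMonoid.End V => (f : V → V)) DFunLike.coe_injective
  haveI : Fintype C := Fintype.ofFinite C
  have A1 : ∀ x : AddMonoid.End V, h * (h' * x) = x := fun x => by
    rw [← mul_assoc, hh', one_mul]
  have A2 : ∀ x : AddMonoid.End V, h' * (h * x) = x := fun x => by
    rw [← mul_assoc, h'h, one_mul]
  have hσmem : ∀ φ ∈ C, h * φ * h' ∈ C := by
    intro φ hφ
    rw [hCmem]
    intro f hf
    have e := (hCmem φ).1 hφ (h' * f * h) (hnorm f hf)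
    have e2 := congrArg (fun x => h * x * h') e
    simp only [mul_assoc, A1, A2, hh', mul_one] at e2
    simp only [mul_assoc]
    exact e2
  have hσmem' : ∀ φ ∈ C, h' * φ * h ∈ C := by
    intro φ hφ
    rw [hCmem]
    intro f hf
    have e := (hCmem φ).1 hφ (h * f * h') (hnorm' f hf)
    have e2 := congrArg (fun x => h' * x * h) e
    simp only [mul_assoc, A1, A2, h'h, mul_one] at e2
    simp only [mul_assoc]
    exact e2
  have hcard : Nat.card C = Nat.card V := by
    apply Nat.card_eq_of_bijective (fun φ : C => (φ : AddMonoid.End V) m)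
    constructor
    · intro φ ψ hφψ
      exact Subtype.ext (hev _ φ.2 _ ψ.2 hφψ)
    · intro v
      by_cases hv : v = 0
      · exact ⟨0, by rw [hv]; rfl⟩
      · obtain ⟨f, hf, hfm⟩ := hreg v hv
        exact ⟨⟨f, hSC f hf⟩, hfm⟩
  have hcomm' : h * h' = h' * h := by rw [hh', h'h]
  have hpow' : h' ^ r = 1 := by
    have : (h * h') ^ r = h ^ r * h' ^ r := Commute.mul_pow hcomm' r
    rw [hh', one_pow, hpow, one_mul] at this
    exact this.symm
  letI : DivisionRing C := Fintype.divisionRingOfIsDomain C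
  letI : Field C := littleWedderburn C
  let σ : C ≃+* C :=
    { toFun := fun φ => ⟨h * φ * h', hσmem φ φ.2⟩
      invFun := fun φ => ⟨h' * φ * h, hσmem' φ φ.2⟩
      left_inv := fun φ => Subtype.ext (by
        show h' * (h * (φ : AddMonoid.End V) * h') * h = φ
        simp only [mul_assoc, A1, A2, h'h, mul_one])
      right_inv := fun φ => Subtype.ext (by
        show h * (h' * (φ : AddMonoid.End V) * h) * h' = φ
        simp only [mul_assoc, A1, A2, hh', mul_one])
      map_mul' := fun φ ψ => Subtype.ext (by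
        show h * ((φ : AddMonoid.End V) * ψ) * h' = (h * φ * h') * (h * ψ * h')
        simp only [mul_assoc, A1, A2])
      map_add' := fun φ ψ => Subtype.ext (by
        show h * ((φ : AddMonoid.End V) + ψ) * h' = (h * φ * h') + (h * ψ * h')
        rw [mul_add, add_mul]) }
  have hσval : ∀ x : C, ((σ x : C) : AddMonoid.End V) = h * x * h' := fun x => rfl
  have hσfix : ∀ x : C, σ x = x → x = 0 ∨ x = 1 := by
    intro x hx
    have e : h * (x : AddMonoid.End V) * h' = x := by rw [← hσval, hx]
    have e2 : h * (x : AddMonoid.End V) = x * h := by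
      have := congrArg (fun y => y * h) e
      simp only [mul_assoc, h'h, mul_one] at this
      exact this
    have e3 : h ((x : AddMonoid.End V) m) = (x : AddMonoid.End V) m := by
      have := congrArg (fun g : AddMonoid.End V => g m) e2
      have t : (x : AddMonoid.End V) (h m) = (x : AddMonoid.End V) m := by rw [hm]
      exact this.trans t
    rcases hfix _ e3 with h0 | h1
    · left
      exact Subtype.ext (hev _ x.2 0 C.zero_mem h0)
    · right
      exact Subtype.ext (hev _ x.2 1 C.one_mem h1)
  have hσ1 : σ ≠ 1 := by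
    intro h1
    obtain ⟨v, hv0, hvm⟩ := hV
    obtain ⟨f, hf, hfm⟩ := hreg v hv0
    have hx : σ ⟨f, hSC f hf⟩ = ⟨f, hSC f hf⟩ := by rw [h1]; rfl
    rcases hσfix _ hx with h0 | h1'
    · have : f = 0 := congrArg Subtype.val h0
      apply hv0; rw [← hfm, this]; rfl
    · have : f = 1 := congrArg Subtype.val h1'
      apply hvm; rw [← hfm, this]; rfl
  have hσpow : ∀ (i : ℕ) (x : C), (((σ ^ i) x : C) : AddMonoid.End V) = h ^ i * x * h' ^ i := by
    intro i
    induction i with
    | zero => intro x; simp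
    | succ i ih =>
      intro x
      have : (σ ^ (i + 1)) x = σ ((σ ^ i) x) := by rw [pow_succ']; rfl
      rw [this, hσval, ih, pow_succ', pow_succ]
      simp only [mul_assoc]
  have hσr : σ ^ r = 1 := by
    apply RingEquiv.ext
    intro x
    apply Subtype.ext
    rw [hσpow, hpow, hpow', one_mul, mul_one]
    rfl
  rw [← hcard]
  exact artin_two σ r hσr hσ1 hσfix

end Cfsg.Agent.Lead.Artin2
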