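import Mathlib
import Cfsg.Prelude.Def_GeometricClasses

set_option autoImplicit false
open scoped MatrixGroups

namespace Cfsg.Agent.Lead.S5998p8

/-- fixed points of a permutation of prime order `r` (or trivial): congruence mod `r` -/
theorem perm_fix_modEq {α : Type*} [Finite α] (σ : Equiv.Perm α) (r : ℕ) [Fact r.Prime]
    (hσ : σ ^ r = 1) : Nat.card α ≡ Nat.card (Function.fixedPoints σ) [MOD r] := by
  classical
  haveI : Fintype α := Fintype.ofFinite α
  have hf : (show Function.End α from (σ : α → α)) ^ r ^ 1 = 1 := by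
    rw [pow_one]
    have h1 := hom_coe_pow (fun g : Function.End α => g) rfl (fun g h => rfl)
      (show Function.End α from (σ : α → α)) r
    have h2 : (⇑σ)^[r] = ⇑(σ ^ r) := Equiv.Perm.iterate_eq_pow σ r
    exact h1.trans (h2.trans (by rw [hσ]; rfl))
  have h := Equiv.Perm.card_fixedPoints_modEq hf
  rwa [← Nat.card_eq_fintype_card, ← Nat.card_eq_fintype_card] at h

/-- divisors of 27 -/
theorem dvd27 (q : ℕ) (hq : q ∣ 27) : q = 1 ∨ q = 3 ∨ q = 9 ∨ q = 27 := by
  have hq' : q ∣ 3 ^ 3 := by norm_num; exact hq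
  obtain ⟨k, hk, hqk⟩ := (Nat.dvd_prime_pow Nat.prime_three).mp hq'
  interval_cases k
  · left; simpa using hqk
  · right; left; simpa using hqk
  · right; right; left; simpa using hqk
  · right; right; right; simpa using hqk

/-- an automorphism of prime order `r ≠ 2, 3` of a nonabelian group of order 27 is trivial -/
theorem aut_trivial {H : Type*} [Group H] (hH : Nat.card H = 27)
    (hna : ¬ ∀ a b : H, a * b = b * a) (φ : MulAut H) (r : ℕ) [hr : Fact r.Prime] (hr2 : r ≠ 2)
    (hr3 : r ≠ 3) (hφ : φ ^ r = 1) : ∀ h : H, φ h = h := by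
  classical
  haveI : Fact (Nat.Prime 3) := ⟨Nat.prime_three⟩
  haveI : Finite H := Nat.finite_of_card_ne_zero (by rw [hH]; norm_num)
  have hr216 : ¬ r ∣ 216 := by
    intro h
    have h' : r ∣ 2 ^ 3 * 3 ^ 3 := by norm_num; exact h
    rcases (Nat.Prime.dvd_mul hr.out).mp h' with h1 | h1
    · exact hr2 ((Nat.prime_dvd_prime_iff_eq hr.out Nat.prime_two).mp (hr.out.dvd_of_dvd_pow h1))
    · exact hr3 ((Nat.prime_dvd_prime_iff_eq hr.out Nat.prime_three).mp (hr.out.dvd_of_dvd_pow h1))
  have hpg : IsPGroup 3 H := IsPGroup.of_card (n := 3) (by rw [hH]; norm_num)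
  haveI : Nontrivial H := by
    by_contra hnt
    rw [not_nontrivial_iff_subsingleton] at hnt
    exact hna (fun a b => Subsingleton.elim _ _)
  obtain ⟨σ, hσd⟩ : ∃ σ : Equiv.Perm H, σ = MulAut.toPerm H φ := ⟨_, rfl⟩
  have hσa : ∀ x, σ x = φ x := fun x => by rw [hσd]; rfl
  have hσ : σ ^ r = 1 := by rw [hσd, ← map_pow, hφ, map_one]
  have hc : ∀ (θ : MulAut H) (z : H), z ∈ Subgroup.center H → θ z ∈ Subgroup.center H := by
    intro θ z hz
    rw [Subgroup.mem_center_iff] at hz ⊢
    intro g
    have := congrArg θ (hz (θ⁻¹ g))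
    simpa using this
  have hcen : ∀ x, σ x ∈ Subgroup.center H ↔ x ∈ Subgroup.center H := by
    intro x
    rw [hσa]
    constructor
    · intro hx
      have := hc φ⁻¹ _ hx
      simpa using this
    · exact hc φ x
  obtain ⟨ψ, hψd⟩ : ∃ ψ : Equiv.Perm (Subgroup.center H), ψ = σ.subtypePerm hcen := ⟨_, rfl⟩
  have hψa : ∀ z : Subgroup.center H, ((ψ z : Subgroup.center H) : H) = φ z := by
    intro z
    rw [hψd, Equiv.Perm.subtypePerm_apply]
    exact hσa _
  have hψ : ψ ^ r = 1 := by
    rw [hψd, Equiv.Perm.subtypePerm_pow]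
    apply Equiv.ext
    intro z
    apply Subtype.ext
    rw [Equiv.Perm.subtypePerm_apply]
    simp [hσ]
  -- the center has order 3 or 9
  haveI hZnt : Nontrivial (Subgroup.center H) := hpg.center_nontrivial
  have hZ1 : 1 < Nat.card (Subgroup.center H) := Finite.one_lt_card
  have hZdvd : Nat.card (Subgroup.center H) ∣ 27 := by
    rw [← hH]; exact Subgroup.card_subgroup_dvd_card _
  have hZ27 : Nat.card (Subgroup.center H) ≠ 27 := by
    intro h
    have htop : Subgroup.center H = ⊤ := (Subgroup.card_eq_iff_eq_top _).mp (by rw [h, hH])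
    apply hna
    intro a b
    have hb : b ∈ Subgroup.center H := by rw [htop]; exact Subgroup.mem_top b
    exact Subgroup.mem_center_iff.mp hb a
  -- a nontrivial fixed point in the center
  have h1fix : (1 : Subgroup.center H) ∈ Function.fixedPoints ψ := by
    show ψ 1 = 1
    apply Subtype.ext
    rw [hψa]
    exact map_one φ
  have hmodZ := perm_fix_modEq ψ r hψ
  have hfixle : Nat.card (Function.fixedPoints ψ) ≤ Nat.card (Subgroup.center H) :=
    Finite.card_subtype_le _
  haveI : Nonempty (Function.fixedPoints ψ) := ⟨⟨1, h1fix⟩⟩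
  have hfixpos : 0 < Nat.card (Function.fixedPoints ψ) := Nat.card_pos
  have hfix1 : 1 < Nat.card (Function.fixedPoints ψ) := by
    by_contra hlt
    have he : Nat.card (Function.fixedPoints ψ) = 1 := by omega
    rw [he] at hmodZ
    have hdv : r ∣ Nat.card (Subgroup.center H) - 1 :=
      (Nat.modEq_iff_dvd' (by omega)).mp hmodZ.symm
    rcases dvd27 _ hZdvd with h | h | h | h
    · omega
    · rw [h] at hdv; exact hr216 (dvd_trans hdv (by norm_num))
    · rw [h] at hdv; exact hr216 (dvd_trans hdv (by norm_num))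
    · exact hZ27 h
  haveI : Nontrivial (Function.fixedPoints ψ) := Finite.one_lt_card_iff_nontrivial.mp hfix1
  obtain ⟨z, hz⟩ := exists_ne (⟨1, h1fix⟩ : Function.fixedPoints ψ)
  have hz2 : ψ z.1 = z.1 := z.2
  have hφz : φ (z.1 : H) = (z.1 : H) := by
    have := congrArg Subtype.val hz2
    rwa [hψa] at this
  have hz0 : ((z.1 : Subgroup.center H) : H) ≠ 1 := by
    intro h
    apply hz
    apply Subtype.ext
    apply Subtype.ext
    exact h
  -- the fixed subgroup
  let C : Subgroup H :=
    { carrier := {h | φ h = h}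
      mul_mem' := by
        intro a b ha hb
        simp only [Set.mem_setOf_eq] at *
        rw [map_mul, ha, hb]
      one_mem' := map_one φ
      inv_mem' := by
        intro a ha
        simp only [Set.mem_setOf_eq] at *
        rw [map_inv, ha] }
  have hCdvd : Nat.card C ∣ 27 := by
    rw [← hH]; exact Subgroup.card_subgroup_dvd_card C
  have hC1 : Nat.card C ≠ 1 := by
    intro h
    have hbot := Subgroup.eq_bot_of_card_eq C h
    have hm : ((z.1 : Subgroup.center H) : H) ∈ C := hφz
    rw [hbot] at hm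
    exact hz0 (Subgroup.mem_bot.mp hm)
  have hmodH := perm_fix_modEq σ r hσ
  have hset : Function.fixedPoints σ = (C : Set H) := by
    ext x
    show σ x = x ↔ φ x = x
    rw [hσa]
  have hcardC : Nat.card (Function.fixedPoints σ) = Nat.card C :=
    Nat.card_congr (Equiv.setCongr hset)
  rw [hH, hcardC] at hmodH
  have hCtop : C = ⊤ := by
    rcases dvd27 _ hCdvd with h | h | h | h
    · exact absurd h hC1
    · rw [h] at hmodH
      have hdv : r ∣ 27 - 3 := (Nat.modEq_iff_dvd' (by norm_num)).mp hmodH.symm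
      exact absurd (dvd_trans hdv (by norm_num)) hr216
    · rw [h] at hmodH
      have hdv : r ∣ 27 - 9 := (Nat.modEq_iff_dvd' (by norm_num)).mp hmodH.symm
      exact absurd (dvd_trans hdv (by norm_num)) hr216
    · exact (Subgroup.card_eq_iff_eq_top C).mp (by rw [h, hH])
  intro h
  have hm : h ∈ C := by rw [hCtop]; exact Subgroup.mem_top h
  exact hm

theorem p8 {F : Type*} [Field F] (R : Subgroup (GL (Fin 3) F)) (hR : Nat.card R = 27) (hRna : ¬ IsMulCommutative R) (y : GL (Fin 3) F) (hy : y ∈ Cfsg.Geo.subgroupNormalizer R) (r : ℕ) [Fact r.Prime] (hr2 : r ≠ 2) (hr3 : r ≠ 3) (hyr : orderOf y = r) :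
    ∀ h ∈ R, y * h = h * y := by
  have hy0 : y ∈ Subgroup.normalizer (R : Set (GL (Fin 3) F)) := hy
  have hy' : ∀ h, h ∈ R ↔ y * h * y⁻¹ ∈ R := Subgroup.mem_normalizer_iff.mp hy0
  have hyi : ∀ h, h ∈ R ↔ y⁻¹ * h * y ∈ R := by
    intro h
    have := Subgroup.mem_normalizer_iff.mp (inv_mem hy0) h
    simpa using this
  let φ : MulAut R :=
    { toFun := fun h => ⟨y * h * y⁻¹, (hy' h).mp h.2⟩
      invFun := fun h => ⟨y⁻¹ * h * y, (hyi h).mp h.2⟩
      left_inv := fun h => Subtype.ext (by
        show y⁻¹ * (y * (h : GL (Fin 3) F) * y⁻¹) * y = h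
        group)
      right_inv := fun h => Subtype.ext (by
        show y * (y⁻¹ * (h : GL (Fin 3) F) * y) * y⁻¹ = h
        group)
      map_mul' := fun a b => Subtype.ext (by
        show y * ((a : GL (Fin 3) F) * b) * y⁻¹ = (y * a * y⁻¹) * (y * b * y⁻¹)
        group) }
  have hφa : ∀ h : R, ((φ h : R) : GL (Fin 3) F) = y * h * y⁻¹ := fun h => rfl
  have hpow : ∀ (n : ℕ) (h : R), (((φ ^ n) h : R) : GL (Fin 3) F) = y ^ n * h * (y ^ n)⁻¹ := by
    intro n
    induction n with
    | zero => intro h; simp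
    | succ n ih =>
      intro h
      rw [pow_succ', MulAut.mul_apply, hφa, ih h, pow_succ']
      group
  have hyr1 : y ^ r = 1 := by rw [← hyr]; exact pow_orderOf_eq_one y
  have hφ : φ ^ r = 1 := by
    apply MulEquiv.ext
    intro h
    apply Subtype.ext
    rw [hpow r h, hyr1]
    simp
  have hna : ¬ ∀ a b : R, a * b = b * a := fun h => hRna ⟨⟨h⟩⟩
  intro h hh
  have h1 := aut_trivial hR hna φ r hr2 hr3 hφ ⟨h, hh⟩
  have h2 : y * h * y⁻¹ = h := congrArg Subtype.val h1
  calc y * h = y * h * y⁻¹ * y := by group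
    _ = h * y := by rw [h2]

end Cfsg.Agent.Lead.S5998p8
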