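import Mathlib
import Cfsg.Agent.Lead.S5998p8

set_option autoImplicit false

namespace Cfsg.Agent.Lead.O504E2

/-- membership in a centralizer of a single element -/
theorem mem_iff_comm {G : Type*} [Group G] (K : Subgroup G) (t : G)
    (hT : Subgroup.centralizer ({t} : Set G) = K) (g : G) : g ∈ K ↔ g * t = t * g := by
  rw [← hT, Subgroup.mem_centralizer_iff]
  constructor
  · intro hg; exact (hg t (Set.mem_singleton t)).symm
  · intro hg x hx; rw [Set.mem_singleton_iff.mp hx]; exact hg.symm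

/-- a Sylow 2-subgroup of a group of order 504 has order 8 -/
theorem sylow_card8 {G : Type*} [Group G] [Finite G] (h : Nat.card G = 504) (T : Sylow 2 G) :
    Nat.card (T : Subgroup G) = 8 := by
  haveI : Fact (Nat.Prime 2) := ⟨Nat.prime_two⟩
  obtain ⟨k, hk⟩ := IsPGroup.iff_card.mp T.isPGroup'
  have hnd := T.not_dvd_index
  have hmul := Subgroup.card_mul_index (T : Subgroup G)
  rw [h, hk] at hmul
  have hk9 : k < 9 := by
    by_contra hge
    have hge' : 9 ≤ k := by omega
    have h1 : 2 ^ 9 ∣ 2 ^ k := pow_dvd_pow 2 hge'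
    have h2 : 2 ^ 9 ∣ 504 := by
      rw [← hmul]; exact Dvd.dvd.mul_right h1 _
    norm_num at h2
  rw [hk]
  interval_cases k <;> first | rfl | (exfalso; norm_num at hmul <;> omega) | (exfalso; omega)

/-- an element of order dividing 3 normalizing a group of order 8 centralizes a nontrivial
element of it -/
theorem exists_fixed {G : Type*} [Group G] (T : Subgroup G) (hT8 : Nat.card T = 8) (y : G)
    (hy : y ∈ Subgroup.normalizer (T : Set G)) (hy3 : y ^ 3 = 1) :
    ∃ a ∈ T, a ≠ 1 ∧ y * a = a * y := by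
  classical
  haveI : Fact (Nat.Prime 3) := ⟨Nat.prime_three⟩
  haveI : Finite T := Nat.finite_of_card_ne_zero (by rw [hT8]; norm_num)
  have hy' : ∀ h, h ∈ T ↔ y * h * y⁻¹ ∈ T := Subgroup.mem_normalizer_iff.mp hy
  have hyi : ∀ h, h ∈ T ↔ y⁻¹ * h * y ∈ T := by
    intro h
    have := Subgroup.mem_normalizer_iff.mp (inv_mem hy) h
    simpa using this
  let φ : MulAut T :=
    { toFun := fun h => ⟨y * h * y⁻¹, (hy' h).mp h.2⟩
      invFun := fun h => ⟨y⁻¹ * h * y, (hyi h).mp h.2⟩
      left_inv := fun h => Subtype.ext (by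
        show y⁻¹ * (y * (h : G) * y⁻¹) * y = h
        group)
      right_inv := fun h => Subtype.ext (by
        show y * (y⁻¹ * (h : G) * y) * y⁻¹ = h
        group)
      map_mul' := fun a b => Subtype.ext (by
        show y * ((a : G) * b) * y⁻¹ = (y * a * y⁻¹) * (y * b * y⁻¹)
        group) }
  have hφa : ∀ h : T, ((φ h : T) : G) = y * h * y⁻¹ := fun h => rfl
  have hpow : ∀ (n : ℕ) (h : T), (((φ ^ n) h : T) : G) = y ^ n * h * (y ^ n)⁻¹ := by
    intro n
    induction n with
    | zero => intro h; simp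
    | succ n ih =>
      intro h
      rw [pow_succ', MulAut.mul_apply, hφa, ih h, pow_succ']
      group
  have hφ : φ ^ 3 = 1 := by
    apply MulEquiv.ext
    intro h
    apply Subtype.ext
    rw [hpow, hy3]
    simp
  obtain ⟨σ, hσd⟩ : ∃ σ : Equiv.Perm T, σ = MulAut.toPerm T φ := ⟨_, rfl⟩
  have hσa : ∀ x, σ x = φ x := fun x => by rw [hσd]; rfl
  have hσ : σ ^ 3 = 1 := by rw [hσd, ← map_pow, hφ, map_one]
  have hmod := Cfsg.Agent.Lead.S5998p8.perm_fix_modEq σ 3 hσ
  rw [hT8] at hmod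
  have h1fix : (1 : T) ∈ Function.fixedPoints σ := by
    show σ 1 = 1
    rw [hσa]
    exact map_one φ
  haveI : Nonempty (Function.fixedPoints σ) := ⟨⟨1, h1fix⟩⟩
  have hfixpos : 0 < Nat.card (Function.fixedPoints σ) := Nat.card_pos
  have hfix1 : 1 < Nat.card (Function.fixedPoints σ) := by
    by_contra hlt
    have he : Nat.card (Function.fixedPoints σ) = 1 := by omega
    rw [he] at hmod
    exact absurd hmod (by decide)
  haveI : Nontrivial (Function.fixedPoints σ) := Finite.one_lt_card_iff_nontrivial.mp hfix1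
  obtain ⟨z, hz⟩ := exists_ne (⟨1, h1fix⟩ : Function.fixedPoints σ)
  have hz2 : σ z.1 = z.1 := z.2
  refine ⟨((z.1 : T) : G), (z.1 : T).2, ?_, ?_⟩
  · intro h
    apply hz
    apply Subtype.ext
    apply Subtype.ext
    exact h
  · have h3 : ((σ z.1 : T) : G) = ((z.1 : T) : G) := congrArg Subtype.val hz2
    rw [hσa, hφa] at h3
    calc y * ((z.1 : T) : G) = y * ((z.1 : T) : G) * y⁻¹ * y := by group
      _ = ((z.1 : T) : G) * y := by rw [h3]

/-- the possible orbit lengths -/
theorem r137 (r c : ℕ) (hc : 504 = 8 * r * c) (hr7 : r ≤ 7) : r = 1 ∨ r = 3 ∨ r = 7 := by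
  interval_cases r <;> omega

/-- all nonidentity elements of `T` are conjugate to `t` -/
theorem fuse {G : Type*} [Group G] [Finite G] (h : Nat.card G = 504) (T : Sylow 2 G)
    (hab : ∀ a ∈ (T : Subgroup G), ∀ b ∈ (T : Subgroup G), a * b = b * a) (t : G)
    (ht : orderOf t = 2) (hT : Subgroup.centralizer ({t} : Set G) = (T : Subgroup G))
    (hno : ∀ a ∈ (T : Subgroup G), a ≠ 1 →
      ¬ ∀ n ∈ Subgroup.normalizer ((T : Subgroup G) : Set G), n * a = a * n) :
    ∀ a ∈ (T : Subgroup G), a ≠ 1 → ∃ g : G, g * t * g⁻¹ = a := by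
  classical
  haveI : Fact (Nat.Prime 3) := ⟨Nat.prime_three⟩
  have hT8 := sylow_card8 h T
  have hcent := mem_iff_comm (T : Subgroup G) t hT
  obtain ⟨N, hNd⟩ : ∃ N : Subgroup G, N = Subgroup.normalizer ((T : Subgroup G) : Set G) :=
    ⟨_, rfl⟩
  rw [← hNd] at hno
  have hTN : (T : Subgroup G) ≤ N := by rw [hNd]; exact Subgroup.le_normalizer
  have htT : t ∈ (T : Subgroup G) := (hcent t).mpr rfl
  have ht1 : t ≠ 1 := by
    intro h1; rw [h1, orderOf_one] at ht; omega
  have hconj : ∀ n ∈ N, ∀ x, x ∈ (T : Subgroup G) ↔ n * x * n⁻¹ ∈ (T : Subgroup G) := by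
    intro n hn
    rw [hNd] at hn
    exact Subgroup.mem_normalizer_iff.mp hn
  letI act : MulAction N G := MulAction.compHom G (MulAut.conj.comp N.subtype)
  have hsm : ∀ (n : N) (x : G), n • x = (n : G) * x * (n : G)⁻¹ := fun n x => rfl
  have hstab : MulAction.stabilizer N t = (T : Subgroup G).subgroupOf N := by
    ext n
    rw [MulAction.mem_stabilizer_iff, Subgroup.mem_subgroupOf, hsm, hcent]
    constructor
    · intro hn
      calc (n : G) * t = (n : G) * t * (n : G)⁻¹ * (n : G) := by group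
        _ = t * (n : G) := by rw [hn]
    · intro hn
      rw [hn]; group
  have hstab8 : Nat.card (MulAction.stabilizer N t) = 8 := by
    rw [hstab, Nat.card_congr (Subgroup.subgroupOfEquivOfLe hTN).toEquiv]; exact hT8
  obtain ⟨r, hr⟩ : ∃ r : ℕ, r = (MulAction.orbit N t).ncard := ⟨_, rfl⟩
  have hidx : (MulAction.stabilizer N t).index = r := by
    rw [hr, ← Nat.card_coe_set_eq]
    exact (Nat.card_congr (MulAction.orbitEquivQuotientStabilizer N t)).symm
  have hmul := Subgroup.card_mul_index (MulAction.stabilizer N t)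
  rw [hstab8, hidx] at hmul
  have hNdvd : Nat.card N ∣ 504 := by rw [← h]; exact Subgroup.card_subgroup_dvd_card N
  have hsub : MulAction.orbit N t ⊆ ((T : Subgroup G) : Set G) \ {1} := by
    intro x hx
    obtain ⟨n, rfl⟩ := MulAction.mem_orbit_iff.mp hx
    rw [hsm]
    refine (Set.mem_diff _).mpr ⟨(hconj n n.2 t).mp htT, ?_⟩
    intro h1
    rw [Set.mem_singleton_iff] at h1
    apply ht1
    calc t = (n : G)⁻¹ * ((n : G) * t * (n : G)⁻¹) * (n : G) := by group
      _ = 1 := by rw [h1]; group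
  have hTn : ((T : Subgroup G) : Set G).ncard = 8 := by
    rw [← Nat.card_coe_set_eq]; exact hT8
  have hcard7 : (((T : Subgroup G) : Set G) \ {1}).ncard = 7 := by
    rw [Set.ncard_diff_singleton_of_mem
      (show (1 : G) ∈ ((T : Subgroup G) : Set G) from Subgroup.one_mem _), hTn]
  have hr7 : r ≤ 7 := by
    rw [hr, ← hcard7]
    exact Set.ncard_le_ncard hsub (Set.toFinite _)
  obtain ⟨c, hc⟩ := hNdvd
  rw [← hmul] at hc
  intro a haT ha1
  rcases r137 r c hc hr7 with h1 | h3 | h7
  · -- the normalizer centralizes `t`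
    exfalso
    have htop : MulAction.stabilizer N t = ⊤ :=
      (Subgroup.card_eq_iff_eq_top _).mp (by rw [hstab8]; omega)
    refine hno t htT ht1 ?_
    intro n hn
    have hmem : (⟨n, hn⟩ : N) ∈ MulAction.stabilizer N t := by
      rw [htop]; exact Subgroup.mem_top _
    have h2 : n * t * n⁻¹ = t := MulAction.mem_stabilizer_iff.mp hmem
    calc n * t = n * t * n⁻¹ * n := by group
      _ = t * n := by rw [h2]
  · -- the normalizer has order 24
    exfalso
    have hN24 : Nat.card N = 24 := by omega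
    obtain ⟨y, hy⟩ := exists_prime_orderOf_dvd_card' (G := N) 3 (by rw [hN24]; norm_num)
    have hy3 : (y : G) ^ 3 = 1 := by
      have h3' : y ^ 3 = 1 := by rw [← hy]; exact pow_orderOf_eq_one y
      exact_mod_cast h3'
    have hyN : (y : G) ∈ Subgroup.normalizer ((T : Subgroup G) : Set G) := by
      rw [← hNd]; exact y.2
    obtain ⟨b, hbT, hb1, hyb⟩ := exists_fixed (T : Subgroup G) hT8 (y : G) hyN hy3
    obtain ⟨K, hKd⟩ : ∃ K : Subgroup G, K = Subgroup.centralizer ({b} : Set G) ⊓ N := ⟨_, rfl⟩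
    have hTK : (T : Subgroup G) ≤ K := by
      rw [hKd]
      refine le_inf ?_ hTN
      intro x hx
      exact Subgroup.mem_centralizer_iff.mpr (fun z hz => by
        rw [Set.mem_singleton_iff.mp hz]; exact hab b hbT x hx)
    have hyK : (y : G) ∈ K := by
      rw [hKd]
      exact Subgroup.mem_inf.mpr ⟨Subgroup.mem_centralizer_iff.mpr (fun z hz => by
        rw [Set.mem_singleton_iff.mp hz]; exact hyb.symm), y.2⟩
    have hKN : K ≤ N := by rw [hKd]; exact inf_le_right
    have h8K : 8 ∣ Nat.card K := by rw [← hT8]; exact Subgroup.card_dvd_of_le hTK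
    have h3K : 3 ∣ Nat.card K := by
      have h5 := Subgroup.orderOf_dvd_natCard K hyK
      rwa [Subgroup.orderOf_coe, hy] at h5
    have hK24 : Nat.card K ∣ 24 := by rw [← hN24]; exact Subgroup.card_dvd_of_le hKN
    have h24K : 24 ∣ Nat.card K :=
      Nat.Coprime.mul_dvd_of_dvd_of_dvd (by norm_num) h8K h3K
    have hKc : Nat.card K = 24 := Nat.dvd_antisymm hK24 h24K
    have hKeq : K = N := Subgroup.eq_of_le_of_card_ge hKN (by rw [hKc, hN24])
    refine hno b hbT hb1 ?_
    intro n hn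
    have hnK : n ∈ K := by rw [hKeq]; exact hn
    rw [hKd] at hnK
    exact (Subgroup.mem_centralizer_iff.mp (Subgroup.mem_inf.mp hnK).1 b
      (Set.mem_singleton b)).symm
  · -- the orbit is everything
    have heq : MulAction.orbit N t = ((T : Subgroup G) : Set G) \ {1} :=
      Set.eq_of_subset_of_ncard_le hsub (by rw [hcard7, ← hr]; omega) (Set.toFinite _)
    have ha : a ∈ MulAction.orbit N t := by
      rw [heq]
      exact (Set.mem_diff _).mpr ⟨haT, fun h => ha1 (Set.mem_singleton_iff.mp h)⟩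
    obtain ⟨n, hn⟩ := MulAction.mem_orbit_iff.mp ha
    exact ⟨(n : G), hn⟩

theorem elem_abelian {G : Type*} [Group G] [Finite G] [IsSimpleGroup G]
    (h : Nat.card G = 504) (T : Sylow 2 G)
    (hab : ∀ a ∈ (T : Subgroup G), ∀ b ∈ (T : Subgroup G), a * b = b * a) (t : G)
    (ht : orderOf t = 2) (hT : Subgroup.centralizer ({t} : Set G) = (T : Subgroup G))
    (hno : ∀ a ∈ (T : Subgroup G), a ≠ 1 →
      ¬ ∀ n ∈ Subgroup.normalizer ((T : Subgroup G) : Set G), n * a = a * n) :
    ∀ u : G, orderOf u = 2 →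
      IsMulCommutative ↥(Subgroup.centralizer ({u} : Set G)) ∧
        ∀ c ∈ Subgroup.centralizer ({u} : Set G), c ^ 2 = 1 := by
  classical
  haveI : Fact (Nat.Prime 2) := ⟨Nat.prime_two⟩
  have hfuse := fuse h T hab t ht hT hno
  have hcent := mem_iff_comm (T : Subgroup G) t hT
  have ht2 : t ^ 2 = 1 := by rw [← ht]; exact pow_orderOf_eq_one t
  have hsq : ∀ a ∈ (T : Subgroup G), a ^ 2 = 1 := by
    intro a ha
    by_cases ha1 : a = 1
    · rw [ha1, one_pow]
    · obtain ⟨g, hg⟩ := hfuse a ha ha1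
      rw [← hg, pow_two]
      calc g * t * g⁻¹ * (g * t * g⁻¹) = g * (t * t) * g⁻¹ := by group
        _ = 1 := by rw [← pow_two, ht2]; group
  intro u hu
  have hu1 : u ≠ 1 := by
    intro h1; rw [h1, orderOf_one] at hu; omega
  obtain ⟨x, hx⟩ : ∃ x : G, x * t * x⁻¹ = u := by
    have hpg : IsPGroup 2 (Subgroup.zpowers u) :=
      IsPGroup.of_card (n := 1) (by rw [Nat.card_zpowers, hu]; norm_num)
    obtain ⟨Q, hQ⟩ := hpg.exists_le_sylow
    obtain ⟨g, hg⟩ := MulAction.exists_smul_eq G T Q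
    have hu2 : u ∈ ((g • T : Sylow 2 G) : Subgroup G) := by
      rw [hg]; exact hQ (Subgroup.mem_zpowers u)
    rw [Sylow.coe_subgroup_smul] at hu2
    obtain ⟨s, hs, hsu⟩ := (Subgroup.mem_smul_pointwise_iff_exists _ _ _).mp hu2
    have hsu' : g * s * g⁻¹ = u := hsu
    have hs1 : s ≠ 1 := by
      intro h1; apply hu1; rw [← hsu', h1]; group
    obtain ⟨n, hn⟩ := hfuse s hs hs1
    refine ⟨g * n, ?_⟩
    rw [← hsu', ← hn]; group
  have hcu : ∀ c : G, c ∈ Subgroup.centralizer ({u} : Set G) →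
      x⁻¹ * c * x ∈ (T : Subgroup G) := by
    intro c hc
    have hc' : u * c = c * u := Subgroup.mem_centralizer_iff.mp hc u (Set.mem_singleton u)
    rw [hcent]
    rw [← hx] at hc'
    calc x⁻¹ * c * x * t = x⁻¹ * (c * (x * t * x⁻¹)) * x := by group
      _ = x⁻¹ * (x * t * x⁻¹ * c) * x := by rw [hc']
      _ = t * (x⁻¹ * c * x) := by group
  constructor
  · refine ⟨⟨fun a b => Subtype.ext ?_⟩⟩
    have h1 := hab _ (hcu a a.2) _ (hcu b b.2)
    show (a : G) * b = b * a
    calc (a : G) * b = x * ((x⁻¹ * a * x) * (x⁻¹ * b * x)) * x⁻¹ := by group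
      _ = x * ((x⁻¹ * b * x) * (x⁻¹ * a * x)) * x⁻¹ := by rw [h1]
      _ = (b : G) * a := by group
  · intro c hc
    have h1 := hsq _ (hcu c hc)
    rw [pow_two] at h1 ⊢
    calc c * c = x * ((x⁻¹ * c * x) * (x⁻¹ * c * x)) * x⁻¹ := by group
      _ = 1 := by rw [h1]; group

end Cfsg.Agent.Lead.O504E2
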