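import Mathlib
import Cfsg.Prelude.Def_Solvable
import Cfsg.Prelude.Def_Local
import Cfsg.Agent.Helper23.PSolv

/-!
Lead library: p-length via chains of normal subgroups, living entirely in the lattice of
normal subgroups of a fixed finite group.
`Ch p k A B`: there is a chain of normal subgroups from `A` to `B` of type `(p' p)^k p'`.
`chain_of_plength`, `plength_of_chain`: `PLengthLE p k G ↔ Ch p k ⊥ ⊤`.
`Dser k B`: the `k`-th derived subgroup of the subgroup `B`, as a subgroup of the ambient group.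
-/

set_option autoImplicit false

namespace Cfsg.Agent.Lead.PChain

open Cfsg

variable {G : Type*} [Group G]

/-- `Ch p k A B`: a chain of normal subgroups from `A` to `B` of type `(p' p)^k p'`. -/
def Ch (p : ℕ) : ℕ → Subgroup G → Subgroup G → Prop
  | 0 => fun A B => A ≤ B ∧ A.Normal ∧ B.Normal ∧ (A.relIndex B).Coprime p
  | (k + 1) => fun A B => ∃ C D : Subgroup G, Ch p k A C ∧ C ≤ D ∧ D.Normal ∧
      (∃ e : ℕ, C.relIndex D = p ^ e) ∧ D ≤ B ∧ B.Normal ∧ (D.relIndex B).Coprime p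

theorem Ch_zero {p : ℕ} {A B : Subgroup G} :
    Ch p 0 A B ↔ (A ≤ B ∧ A.Normal ∧ B.Normal ∧ (A.relIndex B).Coprime p) := Iff.rfl

theorem Ch_succ {p k : ℕ} {A B : Subgroup G} :
    Ch p (k + 1) A B ↔ ∃ C D : Subgroup G, Ch p k A C ∧ C ≤ D ∧ D.Normal ∧
      (∃ e : ℕ, C.relIndex D = p ^ e) ∧ D ≤ B ∧ B.Normal ∧ (D.relIndex B).Coprime p := Iff.rfl

theorem Ch.le {p : ℕ} : ∀ {k : ℕ} {A B : Subgroup G}, Ch p k A B → A ≤ B := by
  intro k
  induction k with
  | zero => intro A B h; exact (Ch_zero.1 h).1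
  | succ k ih =>
    intro A B h
    obtain ⟨C, D, hC, hCD, -, -, hDB, -, -⟩ := Ch_succ.1 h
    exact (ih hC).trans (hCD.trans hDB)

theorem Ch.normal_left {p : ℕ} : ∀ {k : ℕ} {A B : Subgroup G}, Ch p k A B → A.Normal := by
  intro k
  induction k with
  | zero => intro A B h; exact (Ch_zero.1 h).2.1
  | succ k ih =>
    intro A B h
    obtain ⟨C, D, hC, -⟩ := Ch_succ.1 h
    exact ih hC

theorem Ch.normal_right {p : ℕ} {k : ℕ} {A B : Subgroup G} (h : Ch p k A B) : B.Normal := by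
  cases k with
  | zero => exact (Ch_zero.1 h).2.2.1
  | succ k =>
    obtain ⟨C, D, -, -, -, -, -, hB, -⟩ := Ch_succ.1 h
    exact hB

theorem Ch.extend {p : ℕ} {k : ℕ} {A B B' : Subgroup G} (h : Ch p k A B) (hBB' : B ≤ B')
    (hB' : B'.Normal) (hcop : (B.relIndex B').Coprime p) : Ch p k A B' := by
  cases k with
  | zero =>
    obtain ⟨hAB, hA, hB, hc⟩ := Ch_zero.1 h
    refine Ch_zero.2 ⟨hAB.trans hBB', hA, hB', ?_⟩
    rw [← Subgroup.relIndex_mul_relIndex A B B' hAB hBB']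
    exact Nat.Coprime.mul_left hc hcop
  | succ k =>
    obtain ⟨C, D, hC, hCD, hDn, he, hDB, hB, hc⟩ := Ch_succ.1 h
    refine Ch_succ.2 ⟨C, D, hC, hCD, hDn, he, hDB.trans hBB', hB', ?_⟩
    rw [← Subgroup.relIndex_mul_relIndex D B B' hDB hBB']
    exact Nat.Coprime.mul_left hc hcop

theorem Ch.trans {p : ℕ} {a : ℕ} {A B : Subgroup G} (h1 : Ch p a A B) :
    ∀ {b : ℕ} {C : Subgroup G}, Ch p b B C → Ch p (a + b) A C := by
  intro b
  induction b with
  | zero =>
    intro C h2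
    obtain ⟨hBC, -, hC, hc⟩ := Ch_zero.1 h2
    exact h1.extend hBC hC hc
  | succ b ih =>
    intro C h2
    obtain ⟨C', D, hC', hCD, hDn, he, hDB, hB, hc⟩ := Ch_succ.1 h2
    exact Ch_succ.2 ⟨C', D, ih hC', hCD, hDn, he, hDB, hB, hc⟩

theorem Ch.succ {p : ℕ} {k : ℕ} {A B : Subgroup G} (h : Ch p k A B) : Ch p (k + 1) A B :=
  Ch_succ.2 ⟨B, B, h, le_rfl, h.normal_right, ⟨0, by simp⟩, le_rfl, h.normal_right, by simp⟩

theorem Ch.of_pow {p : ℕ} {A B : Subgroup G} (hAB : A ≤ B) (hA : A.Normal) (hB : B.Normal)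
    {e : ℕ} (he : A.relIndex B = p ^ e) : Ch p 1 A B :=
  Ch_succ.2 ⟨A, B, Ch_zero.2 ⟨le_rfl, hA, hA, by simp⟩, hAB, hB, ⟨e, he⟩, le_rfl, hB, by simp⟩

/-- peel the first two steps of a chain. -/
theorem Ch.peel {p : ℕ} : ∀ (k : ℕ) (A B : Subgroup G), Ch p (k + 1) A B →
    ∃ V1 V2 : Subgroup G, A ≤ V1 ∧ V1.Normal ∧ (A.relIndex V1).Coprime p ∧ V1 ≤ V2 ∧
      V2.Normal ∧ (∃ e : ℕ, V1.relIndex V2 = p ^ e) ∧ Ch p k V2 B := by
  intro k
  induction k with
  | zero =>
    intro A B h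
    obtain ⟨C, D, hC, hCD, hDn, he, hDB, hBn, hcop⟩ := Ch_succ.1 h
    obtain ⟨hAC, hAn, hCn, hcop0⟩ := Ch_zero.1 hC
    exact ⟨C, D, hAC, hCn, hcop0, hCD, hDn, he, Ch_zero.2 ⟨hDB, hDn, hBn, hcop⟩⟩
  | succ k ih =>
    intro A B h
    obtain ⟨C, D, hC, hCD, hDn, he, hDB, hBn, hcop⟩ := Ch_succ.1 h
    obtain ⟨V1, V2, h1, h2, h3, h4, h5, h6, h7⟩ := ih A C hC
    exact ⟨V1, V2, h1, h2, h3, h4, h5, h6, Ch_succ.2 ⟨C, D, h7, hCD, hDn, he, hDB, hBn, hcop⟩⟩

theorem relIndex_dvd_of_le_right_normal (H : Subgroup G) [H.Normal] {K L : Subgroup G}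
    (hKL : K ≤ L) : H.relIndex K ∣ H.relIndex L := by
  have h1 : H.relIndex (H ⊔ K) * (H ⊔ K).relIndex (H ⊔ L) = H.relIndex (H ⊔ L) :=
    Subgroup.relIndex_mul_relIndex H (H ⊔ K) (H ⊔ L) le_sup_left (sup_le_sup_left hKL H)
  rw [Subgroup.relIndex_sup_left, Subgroup.relIndex_sup_left] at h1
  exact Dvd.intro _ h1

theorem sect_dvd {A B V0 V1 : Subgroup G} (hA : A.Normal) (hB : B.Normal) (hV0 : V0.Normal)
    (h01 : V0 ≤ V1) :
    (A ⊔ (V0 ⊓ B)).relIndex (A ⊔ (V1 ⊓ B)) ∣ V0.relIndex V1 := by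
  haveI := hA; haveI := hB; haveI := hV0
  have hK : (A ⊔ (V0 ⊓ B)).Normal := inferInstance
  have e1 : A ⊔ (V1 ⊓ B) = (A ⊔ (V0 ⊓ B)) ⊔ (V1 ⊓ B) := by
    rw [sup_assoc, sup_eq_right.2 (inf_le_inf_right B h01)]
  rw [e1, Subgroup.relIndex_sup_left]
  have h2 : (A ⊔ (V0 ⊓ B)).relIndex (V1 ⊓ B) ∣ (V0 ⊓ B).relIndex (V1 ⊓ B) :=
    Subgroup.relIndex_dvd_of_le_left (V1 ⊓ B) le_sup_right
  have e2 : V0 ⊓ B = V0 ⊓ (V1 ⊓ B) := by
    rw [← inf_assoc, inf_eq_left.2 h01]
  have h3 : (V0 ⊓ B).relIndex (V1 ⊓ B) = V0.relIndex (V1 ⊓ B) := by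
    rw [e2, Subgroup.inf_relIndex_right]
  rw [h3] at h2
  exact h2.trans (relIndex_dvd_of_le_right_normal V0 inf_le_left)

theorem Ch.sect {p : ℕ} (hp : p.Prime) {A B : Subgroup G} (hA : A.Normal) (hB : B.Normal) :
    ∀ {k : ℕ} {V0 V1 : Subgroup G}, Ch p k V0 V1 →
      Ch p k (A ⊔ (V0 ⊓ B)) (A ⊔ (V1 ⊓ B)) := by
  haveI := hA; haveI := hB
  intro k
  induction k with
  | zero =>
    intro V0 V1 h
    obtain ⟨h01, hV0, hV1, hc⟩ := Ch_zero.1 h
    haveI := hV0; haveI := hV1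
    exact Ch_zero.2 ⟨sup_le_sup_left (inf_le_inf_right B h01) A, inferInstance, inferInstance,
      Nat.Coprime.coprime_dvd_left (sect_dvd hA hB hV0 h01) hc⟩
  | succ k ih =>
    intro V0 V1 h
    obtain ⟨C, D, hC, hCD, hDn, ⟨e, he⟩, hDV, hV1, hc⟩ := Ch_succ.1 h
    have hCn := hC.normal_right
    haveI := hCn; haveI := hDn; haveI := hV1
    have hd := sect_dvd hA hB hCn hCD
    rw [he] at hd
    obtain ⟨m, -, hm⟩ := (Nat.dvd_prime_pow hp).1 hd
    exact Ch_succ.2 ⟨A ⊔ (C ⊓ B), A ⊔ (D ⊓ B), ih hC,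
      sup_le_sup_left (inf_le_inf_right B hCD) A, inferInstance, ⟨m, hm⟩,
      sup_le_sup_left (inf_le_inf_right B hDV) A, inferInstance,
      Nat.Coprime.coprime_dvd_left (sect_dvd hA hB hDn hDV) hc⟩

theorem Ch.sup_left {p : ℕ} (hp : p.Prime) {Q : Subgroup G} (hQ : Q.Normal) {k : ℕ}
    {V0 V1 : Subgroup G} (h : Ch p k V0 V1) : Ch p k (Q ⊔ V0) (Q ⊔ V1) := by
  have h1 := Ch.sect hp hQ (inferInstance : (⊤ : Subgroup G).Normal) h
  rwa [inf_top_eq, inf_top_eq] at h1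

/-! ### the upper p-series -/

theorem upper_succ_even (p : ℕ) (n : ℕ) (h : Even n) :
    (upperPSeries p G (n + 1)).1 = (pPrimeCore p (G ⧸ (upperPSeries p G n).1)).comap
      (QuotientGroup.mk' (upperPSeries p G n).1) := by
  rw [upperPSeries]; simp [h]

theorem upper_succ_odd (p : ℕ) (n : ℕ) (h : ¬ Even n) :
    (upperPSeries p G (n + 1)).1 = (pCore p (G ⧸ (upperPSeries p G n).1)).comap
      (QuotientGroup.mk' (upperPSeries p G n).1) := by
  rw [upperPSeries]; simp [h]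

theorem relIndex_comap_mk (U : Subgroup G) [U.Normal] (Y : Subgroup (G ⧸ U)) :
    U.relIndex (Y.comap (QuotientGroup.mk' U)) = Nat.card Y := by
  have h := Subgroup.relIndex_ker (QuotientGroup.mk' U) (K := Y.comap (QuotientGroup.mk' U))
  rw [QuotientGroup.ker_mk'] at h
  rw [h, Subgroup.map_comap_eq_self_of_surjective (QuotientGroup.mk'_surjective U)]

theorem le_comap_mk (U : Subgroup G) [U.Normal] (Y : Subgroup (G ⧸ U)) :
    U ≤ Y.comap (QuotientGroup.mk' U) := by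
  intro x hx
  rw [Subgroup.mem_comap]
  have h1 : QuotientGroup.mk' U x = 1 := (QuotientGroup.eq_one_iff x).2 hx
  rw [h1]; exact Y.one_mem

theorem le_comap_pPrimeCore {p : ℕ} (U : Subgroup G) [U.Normal] {C D : Subgroup G}
    (hCU : C ≤ U) (hD : D.Normal) (hcop : (C.relIndex D).Coprime p) :
    D ≤ (pPrimeCore p (G ⧸ U)).comap (QuotientGroup.mk' U) := by
  have hn : (D.map (QuotientGroup.mk' U)).Normal :=
    hD.map (QuotientGroup.mk' U) (QuotientGroup.mk'_surjective U)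
  have hcard : Nat.card (D.map (QuotientGroup.mk' U)) = U.relIndex D := by
    have h := Subgroup.relIndex_ker (QuotientGroup.mk' U) (K := D)
    rw [QuotientGroup.ker_mk'] at h
    exact h.symm
  have hdvd : U.relIndex D ∣ C.relIndex D := Subgroup.relIndex_dvd_of_le_left D hCU
  have h1 : D.map (QuotientGroup.mk' U) ≤ pPrimeCore p (G ⧸ U) :=
    Cfsg.Agent.Helper23.le_pPrimeCore hn (by
      rw [hcard]; exact Nat.Coprime.coprime_dvd_left hdvd hcop)
  exact Subgroup.map_le_iff_le_comap.1 h1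

theorem le_comap_pCore {p : ℕ} (hp : p.Prime) (U : Subgroup G) [U.Normal] {C D : Subgroup G}
    (hCU : C ≤ U) (hD : D.Normal) {e : ℕ} (he : C.relIndex D = p ^ e) :
    D ≤ (pCore p (G ⧸ U)).comap (QuotientGroup.mk' U) := by
  have hn : (D.map (QuotientGroup.mk' U)).Normal :=
    hD.map (QuotientGroup.mk' U) (QuotientGroup.mk'_surjective U)
  have hcard : Nat.card (D.map (QuotientGroup.mk' U)) = U.relIndex D := by
    have h := Subgroup.relIndex_ker (QuotientGroup.mk' U) (K := D)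
    rw [QuotientGroup.ker_mk'] at h
    exact h.symm
  have hdvd : U.relIndex D ∣ C.relIndex D := Subgroup.relIndex_dvd_of_le_left D hCU
  rw [he] at hdvd
  obtain ⟨m, -, hm⟩ := (Nat.dvd_prime_pow hp).1 hdvd
  have hpg : IsPGroup p (D.map (QuotientGroup.mk' U)) := IsPGroup.of_card (hcard.trans hm)
  exact Subgroup.map_le_iff_le_comap.1 (Cfsg.Agent.Helper23.le_pCore hn hpg)

theorem upper_cert [Finite G] {p : ℕ} (hp : p.Prime) :
    ∀ i : ℕ, Ch p i (⊥ : Subgroup G) (upperPSeries p G (2 * i + 1)).1 := by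
  haveI : Fact p.Prime := ⟨hp⟩
  intro i
  induction i with
  | zero =>
    have h1 : (upperPSeries p G (0 + 1)).1 = _ := upper_succ_even (G := G) p 0 (by simp)
    refine Ch_zero.2 ⟨bot_le, inferInstance, inferInstance, ?_⟩
    show ((upperPSeries p G 0).1.relIndex (upperPSeries p G (0 + 1)).1).Coprime p
    rw [h1, relIndex_comap_mk]
    exact Cfsg.Agent.Helper23.pPrimeCore_coprime p
  | succ i ih =>
    have hodd : ¬ Even (2 * i + 1) := by
      rw [Nat.not_even_iff_odd]; exact odd_two_mul_add_one i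
    have heven : Even (2 * i + 2) := ⟨i + 1, by ring⟩
    have h2 : (upperPSeries p G (2 * i + 2)).1 = _ := upper_succ_odd (G := G) p (2 * i + 1) hodd
    have h3 : (upperPSeries p G (2 * i + 2 + 1)).1 = _ :=
      upper_succ_even (G := G) p (2 * i + 2) heven
    show Ch p (i + 1) (⊥ : Subgroup G) (upperPSeries p G (2 * i + 2 + 1)).1
    refine Ch_succ.2 ⟨(upperPSeries p G (2 * i + 1)).1, (upperPSeries p G (2 * i + 2)).1, ih,
      ?_, inferInstance, ?_, ?_, inferInstance, ?_⟩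
    · rw [h2]; exact le_comap_mk _ _
    · rw [h2, relIndex_comap_mk]
      exact IsPGroup.iff_card.1 (Cfsg.Agent.Helper23.pCore_isPGroup p)
    · rw [h3]; exact le_comap_mk _ _
    · rw [h3, relIndex_comap_mk]
      exact Cfsg.Agent.Helper23.pPrimeCore_coprime p

theorem le_upper [Finite G] {p : ℕ} (hp : p.Prime) :
    ∀ (k : ℕ) (B : Subgroup G), Ch p k ⊥ B → B ≤ (upperPSeries p G (2 * k + 1)).1 := by
  intro k
  induction k with
  | zero =>
    intro B h
    obtain ⟨-, -, hBn, hcop⟩ := Ch_zero.1 h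
    have h1 : (upperPSeries p G (0 + 1)).1 = _ := upper_succ_even (G := G) p 0 (by simp)
    show B ≤ (upperPSeries p G (0 + 1)).1
    rw [h1]
    exact le_comap_pPrimeCore (upperPSeries p G 0).1 (C := ⊥) bot_le hBn hcop
  | succ k ih =>
    intro B h
    obtain ⟨C, D, hC, hCD, hDn, ⟨e, he⟩, hDB, hBn, hcop⟩ := Ch_succ.1 h
    have hCU := ih C hC
    have hodd : ¬ Even (2 * k + 1) := by
      rw [Nat.not_even_iff_odd]; exact odd_two_mul_add_one k
    have heven : Even (2 * k + 2) := ⟨k + 1, by ring⟩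
    have h2 : (upperPSeries p G (2 * k + 2)).1 = _ := upper_succ_odd (G := G) p (2 * k + 1) hodd
    have h3 : (upperPSeries p G (2 * k + 2 + 1)).1 = _ :=
      upper_succ_even (G := G) p (2 * k + 2) heven
    have hDU : D ≤ (upperPSeries p G (2 * k + 2)).1 := by
      rw [h2]; exact le_comap_pCore hp (upperPSeries p G (2 * k + 1)).1 hCU hDn he
    show B ≤ (upperPSeries p G (2 * k + 2 + 1)).1
    rw [h3]; exact le_comap_pPrimeCore _ hDU hBn hcop

theorem chain_of_plength [Finite G] {p : ℕ} (hp : p.Prime) {k : ℕ} (h : PLengthLE p k G) :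
    Ch p k (⊥ : Subgroup G) ⊤ := by
  have h1 := upper_cert (G := G) hp k
  have h2 : (upperPSeries p G (2 * k + 1)).1 = ⊤ := h
  rwa [h2] at h1

theorem plength_of_chain [Finite G] {p : ℕ} (hp : p.Prime) {k : ℕ}
    (h : Ch p k (⊥ : Subgroup G) ⊤) : PLengthLE p k G := by
  have h1 := le_upper (G := G) hp k ⊤ h
  exact top_le_iff.1 h1

/-! ### derived series of subgroups -/

/-- iterated derived subgroup of a subgroup, inside the ambient group. -/
def Dser : ℕ → Subgroup G → Subgroup G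
  | 0 => fun B => B
  | (k + 1) => fun B => ⁅Dser k B, Dser k B⁆

theorem Dser_zero (B : Subgroup G) : Dser 0 B = B := rfl

theorem Dser_succ (k : ℕ) (B : Subgroup G) : Dser (k + 1) B = ⁅Dser k B, Dser k B⁆ := rfl

theorem Dser_mono {B B' : Subgroup G} (h : B ≤ B') : ∀ k, Dser k B ≤ Dser k B' := by
  intro k
  induction k with
  | zero => exact h
  | succ k ih => rw [Dser_succ, Dser_succ]; exact Subgroup.commutator_mono ih ih

theorem Dser_le (B : Subgroup G) : ∀ k, Dser k B ≤ B := by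
  intro k
  induction k with
  | zero => exact le_rfl
  | succ k ih =>
    rw [Dser_succ]
    refine (Subgroup.commutator_mono ih ih).trans ?_
    rw [Subgroup.commutator_le]
    intro a ha b hb
    rw [commutatorElement_def]
    exact B.mul_mem (B.mul_mem (B.mul_mem ha hb) (B.inv_mem ha)) (B.inv_mem hb)

theorem Dser_add (B : Subgroup G) (a : ℕ) : ∀ b, Dser (a + b) B = Dser b (Dser a B) := by
  intro b
  induction b with
  | zero => rfl
  | succ b ih =>
    show Dser (a + b + 1) B = _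
    rw [Dser_succ, Dser_succ, ih]

theorem Dser_top : ∀ k, derivedSeries G k = Dser k ⊤ := by
  intro k
  induction k with
  | zero => rfl
  | succ k ih => rw [derivedSeries_succ, Dser_succ, ih]

theorem Dser_map {H : Type*} [Group H] (f : G →* H) (B : Subgroup G) :
    ∀ k, (Dser k B).map f = Dser k (B.map f) := by
  intro k
  induction k with
  | zero => rfl
  | succ k ih => rw [Dser_succ, Dser_succ, Subgroup.map_commutator, ih]

theorem Dser_subtype (P : Subgroup G) (k : ℕ) :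
    (derivedSeries ↥P k).map P.subtype = Dser k P := by
  rw [Dser_top, Dser_map, ← MonoidHom.range_eq_map, Subgroup.range_subtype]

/-- a normal `q`-section of `G` has derived length at most that of a Sylow `q`-subgroup. -/
theorem Dser_section_le [Finite G] {q : ℕ} (hq : q.Prime) (dq : ℕ)
    (hd : ∀ S : Sylow q G, Dser dq (S : Subgroup G) = ⊥)
    {A Q : Subgroup G} (hAQ : A ≤ Q) (hA : A.Normal) {e : ℕ} (he : A.relIndex Q = q ^ e) :
    Dser dq Q ≤ A := by
  haveI : Fact q.Prime := ⟨hq⟩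
  haveI := hA
  obtain ⟨R0⟩ : Nonempty (Sylow q ↥Q) := inferInstance
  set R : Subgroup G := (R0 : Subgroup ↥Q).map Q.subtype with hR
  have hRpg : IsPGroup q R := R0.isPGroup'.map Q.subtype
  have hrel : R.relIndex Q = (R0 : Subgroup ↥Q).index := by
    have h1 : R.subgroupOf Q = (R0 : Subgroup ↥Q) :=
      Subgroup.comap_map_eq_self_of_injective Q.subtype_injective _
    rw [Subgroup.relIndex, h1]
  have hcop : (R.relIndex Q).Coprime q := by
    rw [hrel]
    exact Nat.Coprime.symm ((Nat.Prime.coprime_iff_not_dvd hq).2 R0.not_dvd_index)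
  obtain ⟨S, hRS⟩ := hRpg.exists_le_sylow
  have hDR : Dser dq R = ⊥ := le_bot_iff.1 ((Dser_mono hRS dq).trans (hd S).le)
  have hx1 : (A ⊔ R).relIndex Q ∣ A.relIndex Q :=
    Subgroup.relIndex_dvd_of_le_left Q (le_sup_left : A ≤ A ⊔ R)
  rw [he] at hx1
  have hx2 : (A ⊔ R).relIndex Q ∣ R.relIndex Q :=
    Subgroup.relIndex_dvd_of_le_left Q (le_sup_right : R ≤ A ⊔ R)
  have hx3 : ((A ⊔ R).relIndex Q).Coprime (q ^ e) :=
    (Nat.Coprime.coprime_dvd_left hx2 hcop).pow_right e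
  have hx4 : (A ⊔ R).relIndex Q = 1 := Nat.Coprime.eq_one_of_dvd hx3 hx1
  have hQle : Q ≤ A ⊔ R := Subgroup.relIndex_eq_one.1 hx4
  have hmap : (Dser dq (A ⊔ R)).map (QuotientGroup.mk' A) = ⊥ := by
    rw [Dser_map, Subgroup.map_sup, QuotientGroup.map_mk'_self, bot_sup_eq, ← Dser_map, hDR,
      Subgroup.map_bot]
  intro x hx
  have hx' : x ∈ Dser dq (A ⊔ R) := Dser_mono hQle dq hx
  have h2 : QuotientGroup.mk' A x ∈ (Dser dq (A ⊔ R)).map (QuotientGroup.mk' A) :=
    Subgroup.mem_map_of_mem _ hx'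
  rw [hmap, Subgroup.mem_bot] at h2
  exact (QuotientGroup.eq_one_iff x).1 h2

end Cfsg.Agent.Lead.PChain
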