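import Mathlib

set_option autoImplicit false
set_option linter.style.haveILetI false

namespace Cfsg.Agent.Lead.Schur1

theorem poly_card {F : Type*} [Field F] (g : Polynomial F) (hg : g ≠ 0) {ι : Type*}
    (e : ι → F) (he : Function.Injective e) (h : ∀ j, g.IsRoot (e j)) :
    Nat.card ι ≤ g.natDegree := by
  classical
  have hmem : ∀ j, e j ∈ g.roots.toFinset := fun j => by
    rw [Multiset.mem_toFinset, Polynomial.mem_roots hg]
    exact h j
  have hinj : Function.Injective (fun j : ι => (⟨e j, hmem j⟩ : g.roots.toFinset)) :=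
    fun a b hab => he (congrArg Subtype.val hab)
  have h1 := Nat.card_le_card_of_injective _ hinj
  rw [Nat.card_eq_finsetCard] at h1
  exact h1.trans ((Multiset.toFinset_card_le _).trans (Polynomial.card_roots' g))

theorem roots_card_field {F : Type*} [Field F] (r : ℕ) (hr : 0 < r) {ι : Type*}
    (e : ι → F) (he : Function.Injective e) (h : ∀ j, e j ^ r = 1) : Nat.card ι ≤ r := by
  have hne : (Polynomial.X ^ r - Polynomial.C 1 : Polynomial F) ≠ 0 :=
    Polynomial.X_pow_sub_C_ne_zero hr 1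
  have := poly_card _ hne e he (fun j => by
    rw [Polynomial.IsRoot.def]
    simp [h j])
  rwa [Polynomial.natDegree_X_pow_sub_C] at this

theorem frob_card_field {F : Type*} [Field F] (p i : ℕ) (hp : 1 < p) (hi : i ≠ 0) {ι : Type*}
    (e : ι → F) (he : Function.Injective e) (h : ∀ j, e j ^ p ^ i = e j) :
    Nat.card ι ≤ p ^ i := by
  have hne := FiniteField.X_pow_card_pow_sub_X_ne_zero F hi hp
  have := poly_card _ hne e he (fun j => by
    rw [Polynomial.IsRoot.def]
    simp [h j])
  rwa [FiniteField.X_pow_card_pow_sub_X_natDegree_eq F hi hp] at this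

theorem pow_card_field {F : Type*} [Field F] [Finite F] (x : F) (hx : x ≠ 0) :
    x ^ (Nat.card F - 1) = 1 := by
  classical
  haveI : Fintype F := Fintype.ofFinite F
  rw [Nat.card_eq_fintype_card]
  exact FiniteField.pow_card_sub_one_eq_one x hx

theorem frob_field {F : Type*} [Field F] (p : ℕ) (hp : p.Prime) (hpF : ((p : ℕ) : F) = 0)
    (i : ℕ) : ∃ φ : F →+* F, ∀ x : F, φ x = x ^ p ^ i := by
  have h1 : ringChar F ∣ p := ringChar.dvd hpF
  have h2 : ringChar F = p := ((Nat.dvd_prime hp).1 h1).resolve_left CharP.ringChar_ne_one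
  haveI : CharP F p := ringChar.of_eq h2
  haveI : ExpChar F p := ExpChar.prime hp
  exact ⟨iterateFrobenius F p i, fun x => rfl⟩

theorem artin_dvd {F : Type*} [Field F] [Finite F] (σ : F ≃+* F) (p d : ℕ) (hp : p.Prime)
    (hF : Nat.card F = p ^ d) : orderOf σ ∣ d := by
  classical
  haveI : Fintype F := Fintype.ofFinite F
  haveI : Finite (F ≃+* F) :=
    Finite.of_injective (fun e : F ≃+* F => (e : F → F)) DFunLike.coe_injective
  haveI : Fintype (Subgroup.zpowers σ) := Fintype.ofFinite _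
  have hZ : Fintype.card (Subgroup.zpowers σ) = orderOf σ := by
    rw [← Nat.card_eq_fintype_card, Nat.card_zpowers]
  have hfr : Module.finrank (FixedPoints.subfield (Subgroup.zpowers σ) F) F = orderOf σ := by
    rw [FixedPoints.finrank_eq_card (Subgroup.zpowers σ) F, hZ]
  haveI : Fintype (FixedPoints.subfield (Subgroup.zpowers σ) F) := Fintype.ofFinite _
  have key := Module.card_eq_pow_finrank (K := FixedPoints.subfield (Subgroup.zpowers σ) F) (V := F)
  rw [hfr, ← Nat.card_eq_fintype_card, ← Nat.card_eq_fintype_card, hF] at key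
  obtain ⟨m, hm⟩ : ∃ m : ℕ, Nat.card (FixedPoints.subfield (Subgroup.zpowers σ) F) = m :=
    ⟨_, rfl⟩
  rw [hm] at key
  have hk : 0 < orderOf σ := orderOf_pos σ
  have hmd : m ∣ p ^ d := by rw [key]; exact dvd_pow_self m hk.ne'
  obtain ⟨j, -, rfl⟩ := (Nat.dvd_prime_pow hp).1 hmd
  rw [← pow_mul] at key
  have := Nat.pow_right_injective hp.two_le key
  exact Dvd.intro_left j this.symm

theorem roots_card_dom {R : Type*} [Ring R] [IsDomain R] [Finite R] (r : ℕ) (hr : 0 < r)
    {ι : Type*} (e : ι → R) (he : Function.Injective e) (h : ∀ j, e j ^ r = 1) :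
    Nat.card ι ≤ r := by
  classical
  haveI : Fintype R := Fintype.ofFinite R
  letI : DivisionRing R := Fintype.divisionRingOfIsDomain R
  letI : Field R := littleWedderburn R
  exact roots_card_field r hr e he h

theorem frob_card_dom {R : Type*} [Ring R] [IsDomain R] [Finite R] (p i : ℕ) (hp : 1 < p)
    (hi : i ≠ 0) {ι : Type*} (e : ι → R) (he : Function.Injective e)
    (h : ∀ j, e j ^ p ^ i = e j) : Nat.card ι ≤ p ^ i := by
  classical
  haveI : Fintype R := Fintype.ofFinite R
  letI : DivisionRing R := Fintype.divisionRingOfIsDomain R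
  letI : Field R := littleWedderburn R
  exact frob_card_field p i hp hi e he h

theorem pow_card_dom {R : Type*} [Ring R] [IsDomain R] [Finite R] (x : R) (hx : x ≠ 0) :
    x ^ (Nat.card R - 1) = 1 := by
  classical
  haveI : Fintype R := Fintype.ofFinite R
  letI : DivisionRing R := Fintype.divisionRingOfIsDomain R
  letI : Field R := littleWedderburn R
  exact pow_card_field x hx

theorem frob_dom {R : Type*} [Ring R] [IsDomain R] [Finite R] (p : ℕ) (hp : p.Prime)
    (hpR : ((p : ℕ) : R) = 0) (i : ℕ) : ∃ φ : R →+* R, ∀ x : R, φ x = x ^ p ^ i := by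
  classical
  haveI : Fintype R := Fintype.ofFinite R
  letI : DivisionRing R := Fintype.divisionRingOfIsDomain R
  letI : Field R := littleWedderburn R
  exact frob_field p hp hpR i

theorem artin_dvd_dom {R : Type*} [Ring R] [IsDomain R] [Finite R] (σ : R ≃+* R) (p d : ℕ)
    (hp : p.Prime) (hR : Nat.card R = p ^ d) : orderOf σ ∣ d := by
  classical
  haveI : Fintype R := Fintype.ofFinite R
  letI : DivisionRing R := Fintype.divisionRingOfIsDomain R
  letI : Field R := littleWedderburn R
  exact artin_dvd σ p d hp hR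

/-- an irreducible commuting family `S` of automorphisms of exponent `r` of an elementary abelian
group of order `p ^ d`: the centralizer ring is a field of order `p ^ d`, and consequences -/
theorem schur_core {V : Type*} [AddCommGroup V] [Finite V]
    (S : Set (AddMonoid.End V))
    (hScomm : ∀ f ∈ S, ∀ g ∈ S, f * g = g * f)
    (hirr : ∀ W : AddSubgroup V, (∀ f ∈ S, ∀ w ∈ W, f w ∈ W) → W = ⊥ ∨ W = ⊤)
    (p d : ℕ) (hp : p.Prime) (hV : Nat.card V = p ^ d) (hpV : ∀ v : V, p • v = 0)
    (r : ℕ) (hr : r.Prime) (hSr : ∀ f ∈ S, f ^ r = 1)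
    (f₀ : AddMonoid.End V) (hf₀ : f₀ ∈ S) (hf₀1 : f₀ ≠ 1) :
    (∀ c : AddMonoid.End V, (∀ f ∈ S, f * c = c * f) → ∀ v : V, v ≠ 0 → c v = 0 → c = 0) ∧
    S.ncard ≤ r ∧
    r ∣ p ^ d - 1 ∧
    (∀ i : ℕ, 0 < i → i < d → ¬ r ∣ p ^ i - 1) ∧
    (∀ h h' : AddMonoid.End V, h * h' = 1 → h' * h = 1 → (∀ f ∈ S, h' * f * h ∈ S) →
        (∀ f ∈ S, h * f * h' ∈ S) →
        ∃ k : ℕ, 0 < k ∧ k ∣ d ∧ ∀ f ∈ S, h ^ k * f * h' ^ k = f) := by
  classical
  haveI : Finite (AddMonoid.End V) :=
    Finite.of_injective (fun f : AddMonoid.End V => (f : V → V)) DFunLike.coe_injective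
  obtain ⟨C, hCdef⟩ : ∃ C : Subring (AddMonoid.End V), C = Subring.centralizer S := ⟨_, rfl⟩
  have hCmem : ∀ φ : AddMonoid.End V, φ ∈ C ↔ ∀ f ∈ S, f * φ = φ * f := fun φ => by
    rw [hCdef]; exact Subring.mem_centralizer_iff
  have hSC : ∀ f ∈ S, f ∈ C := fun f hf => (hCmem f).2 (fun g hg => hScomm g hg f hf)
  obtain ⟨v₀, hv₀⟩ : ∃ v : V, v ≠ 0 := by
    by_contra hcon
    push_neg at hcon
    apply hf₀1
    refine DFunLike.ext _ _ (fun w => ?_)
    exact (hcon (f₀ w)).trans (hcon ((1 : AddMonoid.End V) w)).symm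
  have hschur : ∀ φ ∈ C, ∀ v : V, v ≠ 0 → φ v = 0 → φ = 0 := by
    intro φ hφ v hv hφv
    obtain ⟨K, hK⟩ : ∃ K : AddSubgroup V, ∀ w : V, w ∈ K ↔ φ w = 0 :=
      ⟨{ carrier := {w | φ w = 0}
         zero_mem' := map_zero φ
         add_mem' := by
           intro a b ha hb
           show φ (a + b) = 0
           rw [map_add, show φ a = 0 from ha, show φ b = 0 from hb, add_zero]
         neg_mem' := by
           intro a ha
           show φ (-a) = 0
           rw [map_neg, show φ a = 0 from ha, neg_zero] }, fun w => Iff.rfl⟩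
    have hinv : ∀ f ∈ S, ∀ w ∈ K, f w ∈ K := by
      intro f hf w hw
      rw [hK] at hw ⊢
      have e : f (φ w) = φ (f w) :=
        congrArg (fun g : AddMonoid.End V => g w) ((hCmem φ).1 hφ f hf)
      rw [← e, hw, map_zero]
    rcases hirr K hinv with h | h
    · exfalso
      have : v ∈ K := (hK v).2 hφv
      rw [h, AddSubgroup.mem_bot] at this
      exact hv this
    · refine DFunLike.ext _ _ (fun w => ?_)
      have : w ∈ K := by rw [h]; exact AddSubgroup.mem_top w
      exact (hK w).1 this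
  have hev : ∀ φ ∈ C, ∀ ψ ∈ C, ∀ v : V, v ≠ 0 → φ v = ψ v → φ = ψ := by
    intro φ hφ ψ hψ v hv h
    have h0 : (φ - ψ) v = 0 := by
      show φ v - ψ v = 0
      rw [h, sub_self]
    exact sub_eq_zero.1 (hschur (φ - ψ) (C.sub_mem hφ hψ) v hv h0)
  haveI : Nontrivial C := ⟨⟨0, 1, by
    intro h01
    have : ((0 : C) : AddMonoid.End V) v₀ = ((1 : C) : AddMonoid.End V) v₀ := by rw [h01]
    exact hv₀ this.symm⟩⟩
  haveI : NoZeroDivisors C := ⟨by
    intro φ ψ hφψ
    by_cases hψ : ψ = 0
    · exact Or.inr hψ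
    · left
      obtain ⟨w, hw⟩ : ∃ w : V, (ψ : AddMonoid.End V) w ≠ 0 := by
        by_contra hcon
        push_neg at hcon
        apply hψ
        apply Subtype.ext
        refine DFunLike.ext _ _ (fun w => ?_)
        exact hcon w
      have e : (φ : AddMonoid.End V) ((ψ : AddMonoid.End V) w) = 0 := by
        have := congrArg (fun g : C => (g : AddMonoid.End V) w) hφψ
        exact this
      exact Subtype.ext (hschur _ φ.2 _ hw e)⟩
  haveI : IsDomain C := NoZeroDivisors.to_isDomain C
  have hsurj : ∀ w : V, ∃ φ ∈ C, φ v₀ = w := by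
    obtain ⟨K, hK⟩ : ∃ K : AddSubgroup V, ∀ w : V, w ∈ K ↔ ∃ φ ∈ C, φ v₀ = w :=
      ⟨{ carrier := {w | ∃ φ ∈ C, φ v₀ = w}
         zero_mem' := ⟨0, C.zero_mem, rfl⟩
         add_mem' := by
           rintro a b ⟨φ, hφ, rfl⟩ ⟨ψ, hψ, rfl⟩
           exact ⟨φ + ψ, C.add_mem hφ hψ, rfl⟩
         neg_mem' := by
           rintro a ⟨φ, hφ, rfl⟩
           exact ⟨-φ, C.neg_mem hφ, rfl⟩ }, fun w => Iff.rfl⟩
    have hinv : ∀ f ∈ S, ∀ w ∈ K, f w ∈ K := by
      intro f hf w hw
      obtain ⟨φ, hφ, rfl⟩ := (hK w).1 hw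
      exact (hK _).2 ⟨f * φ, C.mul_mem (hSC f hf) hφ, rfl⟩
    rcases hirr K hinv with h | h
    · exfalso
      have : v₀ ∈ K := (hK v₀).2 ⟨1, C.one_mem, rfl⟩
      rw [h, AddSubgroup.mem_bot] at this
      exact hv₀ this
    · intro w
      have : w ∈ K := by rw [h]; exact AddSubgroup.mem_top w
      exact (hK w).1 this
  have hcard : Nat.card C = p ^ d := by
    rw [← hV]
    apply Nat.card_eq_of_bijective (fun φ : C => (φ : AddMonoid.End V) v₀)
    constructor
    · intro φ ψ hφψ
      exact Subtype.ext (hev _ φ.2 _ ψ.2 v₀ hv₀ hφψ)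
    · intro w
      obtain ⟨φ, hφ, hw⟩ := hsurj w
      exact ⟨⟨φ, hφ⟩, hw⟩
  have hpC : ((p : ℕ) : C) = 0 := by
    apply Subtype.ext
    refine DFunLike.ext _ _ (fun v => ?_)
    show ((p : ℕ) : AddMonoid.End V) v = 0
    rw [AddMonoid.End.natCast_apply]
    exact hpV v
  haveI : Fact r.Prime := ⟨hr⟩
  have hcoe_pow : ∀ (x : C) (n : ℕ),
      ((x ^ n : C) : AddMonoid.End V) = (x : AddMonoid.End V) ^ n :=
    fun x n => SubmonoidClass.coe_pow x n
  refine ⟨fun c hc v hv h => hschur c ((hCmem c).2 hc) v hv h, ?_, ?_, ?_, ?_⟩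
  · rw [← Nat.card_coe_set_eq]
    refine roots_card_dom (R := C) r hr.pos (fun s : S => (⟨s.1, hSC s.1 s.2⟩ : C)) ?_ ?_
    · intro s s' h
      have h' : (s : AddMonoid.End V) = s' := congrArg (fun x : C => (x : AddMonoid.End V)) h
      exact Subtype.ext h'
    · intro s
      apply Subtype.ext
      rw [hcoe_pow]
      exact hSr s.1 s.2
  · have hF0 : (⟨f₀, hSC f₀ hf₀⟩ : C) ≠ 0 := by
      intro h0
      have h1 : f₀ = 0 := congrArg Subtype.val h0
      have h2 := hSr f₀ hf₀
      rw [h1, zero_pow hr.ne_zero] at h2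
      have : (0 : AddMonoid.End V) v₀ = (1 : AddMonoid.End V) v₀ := by rw [h2]
      exact hv₀ this.symm
    have h3 := pow_card_dom (⟨f₀, hSC f₀ hf₀⟩ : C) hF0
    rw [hcard] at h3
    have h4 : f₀ ^ (p ^ d - 1) = 1 := by
      have := congrArg Subtype.val h3
      rw [hcoe_pow] at this
      exact this
    have h5 : orderOf f₀ = r := orderOf_eq_prime (hSr f₀ hf₀) hf₀1
    rw [← h5]
    exact orderOf_dvd_of_pow_eq_one h4
  · intro i hi hid hdiv
    obtain ⟨k, hk⟩ := hdiv
    have hpi : p ^ i = r * k + 1 := by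
      have : 1 ≤ p ^ i := Nat.one_le_pow _ _ hp.pos
      omega
    have hfpow : ∀ f ∈ S, f ^ p ^ i = f := by
      intro f hf
      rw [hpi, pow_succ, pow_mul, hSr f hf, one_pow, one_mul]
    obtain ⟨φ, hφ⟩ := frob_dom (R := C) p hp hpC i
    obtain ⟨K, hK⟩ : ∃ K : AddSubgroup V,
        ∀ w : V, w ∈ K ↔ ∃ x : C, φ x = x ∧ (x : AddMonoid.End V) v₀ = w :=
      ⟨{ carrier := {w | ∃ x : C, φ x = x ∧ (x : AddMonoid.End V) v₀ = w}
         zero_mem' := ⟨0, map_zero φ, rfl⟩
         add_mem' := by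
           rintro a b ⟨x, hx, rfl⟩ ⟨y, hy, rfl⟩
           exact ⟨x + y, by rw [map_add, hx, hy], rfl⟩
         neg_mem' := by
           rintro a ⟨x, hx, rfl⟩
           exact ⟨-x, by rw [map_neg, hx], rfl⟩ }, fun w => Iff.rfl⟩
    have hinv : ∀ f ∈ S, ∀ w ∈ K, f w ∈ K := by
      intro f hf w hw
      obtain ⟨x, hx, rfl⟩ := (hK w).1 hw
      refine (hK _).2 ⟨⟨f, hSC f hf⟩ * x, ?_, rfl⟩
      rw [map_mul, hx, hφ]
      congr 1
      apply Subtype.ext
      rw [hcoe_pow]
      exact hfpow f hf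
    have hKtop : K = ⊤ := by
      rcases hirr K hinv with h | h
      · exfalso
        have : v₀ ∈ K := (hK v₀).2 ⟨1, map_one φ, rfl⟩
        rw [h, AddSubgroup.mem_bot] at this
        exact hv₀ this
      · exact h
    have hVle : Nat.card V ≤ Nat.card {x : C // φ x = x} := by
      apply Nat.card_le_card_of_surjective
        (fun x : {x : C // φ x = x} => ((x : C) : AddMonoid.End V) v₀)
      intro w
      have : w ∈ K := by rw [hKtop]; exact AddSubgroup.mem_top w
      obtain ⟨x, hx, hw⟩ := (hK w).1 this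
      exact ⟨⟨x, hx⟩, hw⟩
    have hWle : Nat.card {x : C // φ x = x} ≤ p ^ i := by
      refine frob_card_dom (R := C) p i hp.one_lt hi.ne'
        (fun x : {x : C // φ x = x} => (x : C)) Subtype.val_injective ?_
      intro x
      show (x : C) ^ p ^ i = (x : C)
      rw [← hφ]
      exact x.2
    have : p ^ i < p ^ d := Nat.pow_lt_pow_right hp.one_lt hid
    rw [hV] at hVle
    omega
  · intro h h' hh' h'h hnorm hnorm'
    have A1 : ∀ x : AddMonoid.End V, h * (h' * x) = x := fun x => by
      rw [← mul_assoc, hh', one_mul]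
    have A2 : ∀ x : AddMonoid.End V, h' * (h * x) = x := fun x => by
      rw [← mul_assoc, h'h, one_mul]
    have hσmem : ∀ φ ∈ C, h * φ * h' ∈ C := by
      intro φ hφ
      rw [hCmem]
      intro f hf
      have e := (hCmem φ).1 hφ (h' * f * h) (hnorm f hf)
      have e2 := congrArg (fun x => h * x * h') e
      simp only [mul_assoc, A1, A2, hh', mul_one] at e2
      simp only [mul_assoc]
      exact e2
    have hσmem' : ∀ φ ∈ C, h' * φ * h ∈ C := by
      intro φ hφ
      rw [hCmem]
      intro f hf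
      have e := (hCmem φ).1 hφ (h * f * h') (hnorm' f hf)
      have e2 := congrArg (fun x => h' * x * h) e
      simp only [mul_assoc, A1, A2, h'h, mul_one] at e2
      simp only [mul_assoc]
      exact e2
    let σ : C ≃+* C :=
      { toFun := fun φ => ⟨h * φ * h', hσmem φ φ.2⟩
        invFun := fun φ => ⟨h' * φ * h, hσmem' φ φ.2⟩
        left_inv := fun φ => Subtype.ext (by
          show h' * (h * (φ : AddMonoid.End V) * h') * h = φ
          simp only [mul_assoc, A1, A2, h'h, mul_one])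
        right_inv := fun φ => Subtype.ext (by
          show h * (h' * (φ : AddMonoid.End V) * h) * h' = φ
          simp only [mul_assoc, A1, A2, hh', mul_one])
        map_mul' := fun φ ψ => Subtype.ext (by
          show h * ((φ : AddMonoid.End V) * ψ) * h' = (h * φ * h') * (h * ψ * h')
          simp only [mul_assoc, A1, A2])
        map_add' := fun φ ψ => Subtype.ext (by
          show h * ((φ : AddMonoid.End V) + ψ) * h' = (h * φ * h') + (h * ψ * h')
          rw [mul_add, add_mul]) }
    have hσval : ∀ x : C, ((σ x : C) : AddMonoid.End V) = h * x * h' := fun x => rfl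
    have hσpow : ∀ (i : ℕ) (x : C),
        (((σ ^ i) x : C) : AddMonoid.End V) = h ^ i * x * h' ^ i := by
      intro i
      induction i with
      | zero => intro x; simp
      | succ i ih =>
        intro x
        have : (σ ^ (i + 1)) x = σ ((σ ^ i) x) := by rw [pow_succ']; rfl
        rw [this, hσval, ih, pow_succ', pow_succ]
        simp only [mul_assoc]
    haveI : Finite (C ≃+* C) :=
      Finite.of_injective (fun e : C ≃+* C => (e : C → C)) DFunLike.coe_injective
    refine ⟨orderOf σ, orderOf_pos σ, artin_dvd_dom σ p d hp hcard, ?_⟩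
    intro f hf
    have e := hσpow (orderOf σ) ⟨f, hSC f hf⟩
    rw [pow_orderOf_eq_one] at e
    exact e.symm

end Cfsg.Agent.Lead.Schur1
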